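import Cfsg.Agent.Lib.SporRecognition.HNRep.RelatorsA
import Cfsg.Agent.Lib.SporRecognition.HNRep.RelatorsB

/-! A representation of degree 133 of the presented Harada–Norton group. -/

set_option autoImplicit false
set_option maxRecDepth 100000

namespace CfsgLib.SporRecognition.HNRep

attribute [local irreducible] mul one mat okB ent matX invX matY invY matZ invZ matT invT pw2

theorem rels_hold : ∀ r ∈ Cfsg.Spor.coxRelators Cfsg.Spor.HN.edges ∪ {r | r ∈ Cfsg.Spor.HN.extra},
    FreeGroup.lift img r = 1 := by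
  rintro r (⟨a, ha, -⟩ | hr)
  · simp [Cfsg.Spor.HN.edges, Cfsg.Spor.coxNodes] at ha
  · simp only [Cfsg.Spor.HN.extra, Set.mem_ofPred_eq, List.mem_cons, List.not_mem_nil, or_false] at hr
    rcases hr with rfl | rfl | rfl | rfl | rfl | rfl | rfl | rfl | rfl | rfl | rfl | rfl | rfl | rfl
    exacts [rel0, rel1, rel2, rel3, rel4, rel5, rel6, rel7, rel8, rel9, rel10, rel11, rel12, rel13]

/-- A representation in which `x` has order greater than two and does not commute with `y`. -/
theorem exists_rep : ∃ (M : Type) (_ : Group M) (ψ : Cfsg.Spor.HN →* M),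
    ψ (PresentedGroup.of Cfsg.Spor.HN.Gen.x) ^ 2 ≠ 1 ∧
      ψ (PresentedGroup.of .x) * ψ (PresentedGroup.of .y) ≠ ψ (PresentedGroup.of .y) * ψ (PresentedGroup.of .x) := by
  refine ⟨M133ˣ, inferInstance, PresentedGroup.toGroup rels_hold, ?_, ?_⟩
  · rw [PresentedGroup.toGroup.of]
    exact ne_of_rep (rep_pw2 rep_x) rep_one (by decide +kernel)
  · rw [PresentedGroup.toGroup.of, PresentedGroup.toGroup.of]
    exact ne_of_rep (rep_mul rep_x rep_y) (rep_mul rep_y rep_x) (by decide +kernel)

end CfsgLib.SporRecognition.HNRep
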